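import Mathlib
import Cfsg.Agent.Lib.Helper32.D8Stmt
import Cfsg.Agent.Lib.CT.FrobRec

set_option autoImplicit false

/-! S3716 piece CSD2 (second seat helper84): the `x*y`-side tables when `a ~ a*b`: CS3 for the
dual configuration, moved back by conjugation (BBINV, DUAL). -/

namespace Cfsg.Agent.Lib.Helper84.D8CSD2

open Cfsg Cfsg.Agent.Lib.Helper32 Cfsg.Agent.Lib.Helper32.D8Stmt

universe u

theorem cz_conj' {G : Type u} [Group G] (k u : G) : cz (k * u * k⁻¹) = cz u := by
  unfold cz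
  congr 1
  apply Nat.card_congr
  exact
    { toFun := fun g => ⟨k⁻¹ * g.1 * k, by
        have hg := g.2
        rw [Subgroup.mem_centralizer_iff] at hg ⊢
        intro z hz
        rw [Set.mem_singleton_iff] at hz
        subst hz
        have h1 := hg (k * z * k⁻¹) (Set.mem_singleton _)
        calc z * (k⁻¹ * g.1 * k) = k⁻¹ * (k * z * k⁻¹ * g.1) * k := by group
          _ = k⁻¹ * (g.1 * (k * z * k⁻¹)) * k := by rw [h1]
          _ = k⁻¹ * g.1 * k * z := by group⟩
      invFun := fun g => ⟨k * g.1 * k⁻¹, by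
        have hg := g.2
        rw [Subgroup.mem_centralizer_iff] at hg ⊢
        intro z hz
        rw [Set.mem_singleton_iff] at hz
        subst hz
        have h1 := hg u (Set.mem_singleton _)
        calc k * u * k⁻¹ * (k * g.1 * k⁻¹) = k * (u * g.1) * k⁻¹ := by group
          _ = k * (g.1 * u) * k⁻¹ := by rw [h1]
          _ = k * g.1 * k⁻¹ * (k * u * k⁻¹) := by group⟩
      left_inv := fun g => by
        apply Subtype.ext
        show k * (k⁻¹ * g.1 * k) * k⁻¹ = g.1
        group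
      right_inv := fun g => by
        apply Subtype.ext
        show k⁻¹ * (k * g.1 * k⁻¹) * k = g.1
        group }

/-- Transport of a `bb`-table along conjugation, with the roles of the two elements swapped. -/
theorem tab_transport {G : Type u} [Group G] [Fintype G] (hBBINV : BBINV.{u}) (Θ : G → ℂ)
    (hcl : IsClassFunction G Θ) (a w a' w' k1 k2 : G) (h1 : a' = k1 * w * k1⁻¹)
    (h2 : w' = k2 * a * k2⁻¹) (α β γ : ℂ) (h : Tab Θ a' w' α β γ) : Tab Θ a w γ β α := by
  subst h1 h2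
  have conjL : ∀ u v k : G, bb Θ (k * u * k⁻¹) v = bb Θ u v :=
    fun u v k => (hBBINV Θ hcl u v k).2.1
  have conjR : ∀ u v k : G, bb Θ u (k * v * k⁻¹) = bb Θ u v :=
    fun u v k => (hBBINV Θ hcl u v k).2.2
  have sym : ∀ u v : G, bb Θ u v = bb Θ v u := fun u v => (hBBINV Θ hcl u v 1).1
  obtain ⟨hα, hβ, hγ⟩ := h
  refine ⟨?_, ?_, ?_⟩
  · rw [← hγ, conjL, conjR]
  · rw [← hβ, conjL, conjR]
    exact sym a w
  · rw [← hα, conjL, conjR]

theorem main (hDUAL : DUAL.{u}) (hBBINV : BBINV.{u}) (hCS3 : CS3.{u}) : CSD2.{u} := by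
  intro G _ _ T N x y a b w hC f' g' hOm hnaw hab
  obtain ⟨hC', e1, e2, e3, -, -⟩ := hDUAL hC
  have hwa' : IsConj w (w * a * b) := isConj_iff.mpr ⟨a, e1.symm⟩
  have hab' : IsConj a b := isConj_iff.mpr ⟨w, e3.symm⟩
  have hn' : ¬ IsConj (w * a * b) b := by
    intro h
    exact hnaw ((hwa'.trans h).trans hab'.symm).symm
  have hc' : IsConj b (w * a * b * w) := by
    rw [e2]
    exact hab'.symm.trans hab
  obtain ⟨hT1, hT2⟩ := hCS3 hC' f' g' hOm hn' hc'
  have hz1 : cz (w * a * b) = cz w := by rw [e1]; exact cz_conj' a w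
  have hz2 : cz b = cz a := by rw [e3]; exact cz_conj' w a
  have hcl1 : IsClassFunction G (th1 (x * y) f') :=
    Cfsg.Agent.Lib.CT.FrobRec.indFun_isClassFunction _ _
  have hcl2 : IsClassFunction G (th2 (x * y) f' g') :=
    Cfsg.Agent.Lib.CT.FrobRec.indFun_isClassFunction _ _
  have hT1' := tab_transport hBBINV _ hcl1 a w (w * a * b) b a w e1 e3 _ _ _ hT1
  have hT2' := tab_transport hBBINV _ hcl2 a w (w * a * b) b a w e1 e3 _ _ _ hT2
  rw [hz1, hz2] at hT1' hT2'
  have hm : 3 * cz w * cz a / (2 * (Nat.card G : ℂ)) = 3 * cz a * cz w / (2 * (Nat.card G : ℂ)) := by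
    ring
  rw [hm] at hT1' hT2'
  exact ⟨hT1', hT2'⟩

end Cfsg.Agent.Lib.Helper84.D8CSD2
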