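import Mathlib
import Cfsg.Agent.Lib.Helper25.ACStmt

/-! S3912 piece INDUCT: the statement from `KeyStep` and `Transfer` (strong induction on the
order). -/

set_option autoImplicit false

namespace Cfsg.Agent.Lib.Helper84.ACINDUCT

open Cfsg.Agent.Lib.Helper25.ACStmt

universe u

theorem main (hK : KeyStep.{u}) (hT : Transfer.{u}) : Goal.{u} := by
  have key : ∀ n : ℕ, ∀ (G : Type u) [Group G] [Finite G], Nat.card G = n → PropB G →
      Group.IsSolvable G → ∀ (M : Subgroup G) [M.Normal], PropB (G ⧸ M) := by
    intro n
    induction n using Nat.strong_induction_on with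
    | _ n ih =>
      intro G _ _ hn hB hsol M hMn
      by_cases hM : M = ⊥
      · subst hM
        exact hT G (G ⧸ (⊥ : Subgroup G)) QuotientGroup.quotientBot.symm hB
      · obtain ⟨N, hNn, hNbot, hNM, hBN⟩ := hK G hsol hB M hMn hM
        haveI := hNn
        haveI := hsol
        have hlt : Nat.card (G ⧸ N) < n := by
          rw [← hn]
          have h1 : Nat.card G = Nat.card (G ⧸ N) * Nat.card ↥N :=
            Subgroup.card_eq_card_quotient_mul_card_subgroup N
          have h2 : 1 < Nat.card ↥N := by
            have hne : Nat.card ↥N ≠ 1 := fun h => hNbot (Subgroup.card_eq_one.mp h)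
            have hpos : 0 < Nat.card ↥N := Nat.card_pos
            omega
          have h3 : 0 < Nat.card (G ⧸ N) := Nat.card_pos
          nlinarith
        have hsolN : Group.IsSolvable (G ⧸ N) := inferInstance
        have h := ih (Nat.card (G ⧸ N)) hlt (G ⧸ N) rfl hBN hsolN (M.map (QuotientGroup.mk' N))
        exact hT _ _ (QuotientGroup.quotientQuotientEquivQuotient N M hNM) h
  intro G _ _ hB hsol M _
  exact key _ G rfl hB hsol M

end Cfsg.Agent.Lib.Helper84.ACINDUCT
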