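import Mathlib
import Cfsg.Agent.Lib.Helper25.ACStmt

/-! S3912 piece QUOTODD: (B) for `G ⧸ Z₀`, `r` odd. -/

set_option autoImplicit false

namespace Cfsg.Agent.Lib.Helper84.ACQUOTODD

open Cfsg.Agent.Lib.Helper25.ACStmt

universe u

theorem main (hPre : Preim.{u}) (hS : SZLift.{u}) (hAb : AbOddSub.{u}) (hL : LiftCrit.{u}) :
    QuotOdd.{u} := by
  intro G _ _ hB r hr hr2 Z₀ hZn hZ hord
  apply hL G Z₀ hB
  refine ⟨fun n => if r ∣ n then r * n else n, ?_⟩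
  intro A hA
  by_cases hdvd : r ∣ Nat.card ↥A
  · obtain ⟨hle, hmap, hcard, hcomm⟩ := hPre G Z₀ A hA
    have hrr : r * r ∣ Nat.card ↥(A.comap (QuotientGroup.mk' Z₀)) := by
      rw [hcard, hZ]
      exact Nat.mul_dvd_mul_left r hdvd
    have hab := hAb G r hr2 Z₀ (A.comap (QuotientGroup.mk' Z₀)) hZ hle hord hcomm hrr
    refine ⟨A.comap (QuotientGroup.mk' Z₀), ⟨⟨fun a b => Subtype.ext (hab a.1 a.2 b.1 b.2)⟩⟩,
      hmap, ?_⟩
    rw [hcard, hZ]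
    simp [hdvd]
  · have hcop : Nat.Coprime (Nat.card ↥Z₀) (Nat.card ↥A) := by
      rw [hZ]
      exact (Nat.Prime.coprime_iff_not_dvd hr.out).mpr hdvd
    obtain ⟨A₀, hA₀, hmap, hcard⟩ := hS G Z₀ A hA hcop
    refine ⟨A₀, hA₀, hmap, ?_⟩
    rw [hcard]
    simp [hdvd]

end Cfsg.Agent.Lib.Helper84.ACQUOTODD
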