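import Mathlib
import Cfsg.Agent.Lib.Helper25.ACStmt
import Cfsg.Agent.Lib.Helper25.ACOddStmt

/-! S3911 piece INDUCT11: the statement from `KeyOdd` and `Transfer` (strong induction on the
order of the normal subgroup of odd order). -/

set_option autoImplicit false

namespace Cfsg.Agent.Lib.Helper84.AOINDUCT11

open Cfsg.Agent.Lib.Helper25.ACStmt Cfsg.Agent.Lib.Helper25.ACOddStmt

universe u

theorem main (hK : KeyOdd.{u}) (hT : Transfer.{u}) : Goal11.{u} := by
  have key : ∀ n : ℕ, ∀ (G : Type u) [Group G] [Finite G], PropB G →
      ∀ (M : Subgroup G) [M.Normal], Odd (Nat.card ↥M) → Nat.card ↥M = n → PropB (G ⧸ M) := by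
    intro n
    induction n using Nat.strong_induction_on with
    | _ n ih =>
      intro G _ _ hB M hMn hodd hn
      by_cases hM : M = ⊥
      · subst hM
        exact hT G (G ⧸ (⊥ : Subgroup G)) QuotientGroup.quotientBot.symm hB
      · have hbelow : OddBelow.{u} (Nat.card ↥M) := by
          intro G' _ _ hB' N' _ hodd' hlt
          exact ih (Nat.card ↥N') (by rw [← hn]; exact hlt) G' hB' N' hodd' rfl
        obtain ⟨N, hNn, hNbot, hNM, hBN⟩ := hK G hB M hMn hM hodd hbelow
        haveI := hNn
        have hidx : (M.map (QuotientGroup.mk' N)).index = M.index :=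
          Subgroup.index_map_eq M (QuotientGroup.mk'_surjective N)
            (by rw [QuotientGroup.ker_mk']; exact hNM)
        have h1 : Nat.card G = Nat.card (G ⧸ N) * Nat.card ↥N :=
          Subgroup.card_eq_card_quotient_mul_card_subgroup N
        have h2 : Nat.card ↥M * M.index = Nat.card G := Subgroup.card_mul_index M
        have h3 : Nat.card ↥(M.map (QuotientGroup.mk' N)) *
            (M.map (QuotientGroup.mk' N)).index = Nat.card (G ⧸ N) := Subgroup.card_mul_index _
        have hipos : 0 < M.index := Nat.pos_of_ne_zero Subgroup.index_ne_zero_of_finite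
        have hcard : Nat.card ↥M = Nat.card ↥(M.map (QuotientGroup.mk' N)) * Nat.card ↥N := by
          rw [hidx] at h3
          have h4 : Nat.card ↥M * M.index =
              Nat.card ↥(M.map (QuotientGroup.mk' N)) * Nat.card ↥N * M.index := by
            rw [h2, h1, ← h3]
            ring
          exact Nat.eq_of_mul_eq_mul_right hipos h4
        have hN2 : 1 < Nat.card ↥N := by
          have hne : Nat.card ↥N ≠ 1 := fun h => hNbot (Subgroup.card_eq_one.mp h)
          have hpos : 0 < Nat.card ↥N := Nat.card_pos
          omega
        have hodd2 : Odd (Nat.card ↥(M.map (QuotientGroup.mk' N))) := by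
          rw [hcard] at hodd
          exact Nat.Odd.of_mul_left hodd
        have hlt : Nat.card ↥(M.map (QuotientGroup.mk' N)) < n := by
          rw [← hn, hcard]
          have hpos : 0 < Nat.card ↥(M.map (QuotientGroup.mk' N)) := Nat.card_pos
          nlinarith
        have h := ih _ hlt (G ⧸ N) hBN (M.map (QuotientGroup.mk' N)) hodd2 rfl
        exact hT _ _ (QuotientGroup.quotientQuotientEquivQuotient N M hNM) h
  intro G _ _ hB M _ hodd
  exact key _ G hB M hodd rfl

end Cfsg.Agent.Lib.Helper84.AOINDUCT11
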