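import Mathlib
import Cfsg.Agent.Lib.Helper88.ORStmt
import Cfsg.Agent.Lib.Helper87.FSBasic

/-! S5202 piece AUTNORM (helper84): if `F'` over `S'` is normal in `F` then `Aut_{F'}(S')` is
normalized by `Aut_F(S')`. -/

set_option autoImplicit false
open Cfsg

namespace Cfsg.Agent.Lib.Helper84.ORAUTNORM

open Cfsg.FusionSystem Cfsg.Agent.Lib.Helper88.ORStmt Cfsg.Agent.Lib.Helper87.FSBasic

universe u

theorem hom_of_eq {Ω : Type u} [Group Ω] {S' : Subgroup Ω} (F' : FusionSystem S')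
    (Q R : Subgroup Ω) (hQ : Q = R) (χ : Q →* Ω) (hχ : χ ∈ F'.Hom Q) (f : R →* Ω)
    (hf : ∀ (x : R) (hx : (x : Ω) ∈ Q), f x = χ ⟨x, hx⟩) : f ∈ F'.Hom R := by
  subst hQ
  exact mem_of_eq F' hχ fun x => hf x x.2

theorem main : AutNormal.{u} := by
  intro Ω _ S _ p _ _ F _ S' F' hn α hα a ha
  have hinv := hn.1.2.2.2.2.1
  have ha' : S'.subtype.comp a.toMonoidHom ∈ F'.Hom S' := (mem_autGroup_iff F' le_rfl a).1 ha
  obtain ⟨χ, hχ, hχe⟩ := hinv S' le_rfl _ ha' α hα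
  have hQ : (S'.subgroupOf S').map (S'.subtype.comp α.toMonoidHom) = S' := by
    apply le_antisymm
    · rintro _ ⟨y, -, rfl⟩
      exact (α y).2
    · intro z hz
      refine ⟨α⁻¹ ⟨z, hz⟩, ?_, ?_⟩
      · exact Subgroup.mem_subgroupOf.mpr (α⁻¹ ⟨z, hz⟩).2
      · show ((α (α⁻¹ ⟨z, hz⟩) : S') : Ω) = z
        rw [MulAut.apply_inv_self]
  apply (mem_autGroup_iff F' le_rfl (α * a * α⁻¹)).2
  refine hom_of_eq F' _ S' hQ χ hχ _ ?_
  intro x hx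
  set y : S' := α⁻¹ x with hy
  have hxy : (x : Ω) = ((α ⟨(y : Ω), y.2⟩ : S') : Ω) := by
    show (x : Ω) = ((α (α⁻¹ x) : S') : Ω)
    rw [MulAut.apply_inv_self]
  have hαx : ((α ⟨(y : Ω), y.2⟩ : S') : Ω) ∈
      (S'.subgroupOf S').map (S'.subtype.comp α.toMonoidHom) := hxy ▸ hx
  have h1 := hχe y (a y).2 hαx
  have e2 : (⟨(x : Ω), hx⟩ : ↥((S'.subgroupOf S').map (S'.subtype.comp α.toMonoidHom))) =
      ⟨((α ⟨(y : Ω), y.2⟩ : S') : Ω), hαx⟩ := Subtype.ext hxy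
  rw [e2, h1]
  rfl

end Cfsg.Agent.Lib.Helper84.ORAUTNORM
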