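import Mathlib
import Cfsg.Agent.Lib.Helper88.ORStmt
import Cfsg.Agent.H84.FusConstr

/-! S5202 piece EXS (helper84): for systems over the same group the extension clause is automatic. -/

set_option autoImplicit false
open Cfsg

namespace Cfsg.Agent.Lib.Helper84.OREXS

open Cfsg.FusionSystem Cfsg.Agent.Lib.Helper88.ORStmt

universe u

theorem aux {Ω : Type u} [Group Ω] {T : Subgroup Ω} (E X : FusionSystem T)
    (hEX : E.IsSubsystemOf X) (Q : Subgroup Ω) (hTQ : T ≤ Q) (hQ : Q = T)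
    (α : MulAut T) (hα : α ∈ E.autGroup T) :
    ∃ β ∈ X.autGroup Q,
      (∀ x : T, ((β (Subgroup.inclusion hTQ x) : Q) : Ω) = ((α x : T) : Ω)) ∧
      ∀ c : Q, (c : Ω) ∈ centralizerIn T T →
        (c : Ω)⁻¹ * ((β c : Q) : Ω) ∈ T ⊓ Subgroup.centralizer (T : Set Ω) := by
  subst hQ
  refine ⟨α, Cfsg.Agent.H84.autGroup_le_of_subsystem E X hEX _ hα, fun x => rfl, ?_⟩
  intro c hc
  have hcz : (c : Ω) ∈ Subgroup.centralizer ((Q : Subgroup Ω) : Set Ω) := hc.2
  have hαz : ((α c : Q) : Ω) ∈ Subgroup.centralizer ((Q : Subgroup Ω) : Set Ω) := by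
    intro y hy
    have h1 : α (α.symm ⟨y, hy⟩) = ⟨y, hy⟩ := α.apply_symm_apply _
    have h2 : (α.symm ⟨y, hy⟩ : Q) * c = c * (α.symm ⟨y, hy⟩ : Q) := by
      apply Subtype.ext
      exact hcz _ (α.symm ⟨y, hy⟩).2
    have h3 := congrArg (fun z : Q => ((α z : Q) : Ω)) h2
    simp only [map_mul, Subgroup.coe_mul, h1] at h3
    exact h3
  refine ⟨Subgroup.mul_mem _ (Subgroup.inv_mem _ c.2) (α c).2, ?_⟩
  exact Subgroup.mul_mem _ (Subgroup.inv_mem _ hcz) hαz

theorem main : ExtSame.{u} := by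
  intro Ω _ T E X hEX α hα
  exact aux E X hEX (T ⊔ centralizerIn T T) le_sup_left
    (sup_eq_left.mpr inf_le_left) α hα

end Cfsg.Agent.Lib.Helper84.OREXS
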