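import Mathlib
import Cfsg.Agent.Lib.Helper88.ORStmt
import Cfsg.Agent.H84.FusConstr

/-! S5202 piece NT (helper84): `D` normal in `F'`, weakly normal in `F ≥ F'`, `C_S(S'') ≤ S'`
implies `D` normal in `F`. -/

set_option autoImplicit false
open Cfsg

namespace Cfsg.Agent.Lib.Helper84.ORNT

open Cfsg.FusionSystem Cfsg.Agent.Lib.Helper88.ORStmt

universe u

theorem aux {Ω : Type u} [Group Ω] {S S' S'' : Subgroup Ω} (F : FusionSystem S)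
    (F' : FusionSystem S') (hsub : F'.IsSubsystemOf F) (C C' : Subgroup Ω) (hC : C' = C)
    (α : MulAut S'') (β' : MulAut ↥(S'' ⊔ C')) (hβ' : β' ∈ F'.autGroup (S'' ⊔ C'))
    (h1 : ∀ x : S'', ((β' (Subgroup.inclusion le_sup_left x) : ↥(S'' ⊔ C')) : Ω) = ((α x : S'') : Ω))
    (h2 : ∀ c : ↥(S'' ⊔ C'), (c : Ω) ∈ C' →
      (c : Ω)⁻¹ * ((β' c : ↥(S'' ⊔ C')) : Ω) ∈ S'' ⊓ Subgroup.centralizer (S'' : Set Ω)) :
    ∃ β ∈ F.autGroup (S'' ⊔ C),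
      (∀ x : S'', ((β (Subgroup.inclusion le_sup_left x) : ↥(S'' ⊔ C)) : Ω) = ((α x : S'') : Ω)) ∧
      ∀ c : ↥(S'' ⊔ C), (c : Ω) ∈ C →
        (c : Ω)⁻¹ * ((β c : ↥(S'' ⊔ C)) : Ω) ∈ S'' ⊓ Subgroup.centralizer (S'' : Set Ω) := by
  subst hC
  exact ⟨β', Cfsg.Agent.H84.autGroup_le_of_subsystem F' F hsub _ hβ', h1, h2⟩

theorem main : NormalTrans.{u} := by
  intro Ω _ S _ p _ F S' S'' F' D hsub hwn hn hcen
  refine ⟨hwn, ?_⟩
  intro α hα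
  obtain ⟨β', hβ', h1, h2⟩ := hn.2 α hα
  have hS'S : S' ≤ S := by
    have h := hsub S' (F'.conj_mem (g := 1) le_rfl S'.one_mem)
    exact (F.le_of_mem h).1
  have hC : centralizerIn S' S'' = centralizerIn S S'' := by
    apply le_antisymm
    · intro x hx
      exact ⟨hS'S hx.1, hx.2⟩
    · intro x hx
      exact ⟨hcen hx, hx.2⟩
  exact aux F F' hsub _ _ hC α β' hβ' h1 h2

end Cfsg.Agent.Lib.Helper84.ORNT
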