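import Mathlib
import Cfsg.Agent.Lib.Helper88.ORStmt
import Cfsg.Agent.Lib.Helper87.FSBasic

/-! S5202 piece PPIDX (helper84): if `E` is normal in `F₀`, `Aut_{F₀}(T) ≤ Aut_E(T)` and every
map of `F₀` is trivial modulo `T`, then `E` has `p`-power index in `F₀`. -/

set_option autoImplicit false
open Cfsg

namespace Cfsg.Agent.Lib.Helper84.ORPPIDX

open Cfsg.FusionSystem Cfsg.Agent.Lib.Helper88.ORStmt Cfsg.Agent.Lib.Helper87.FSBasic

universe u

theorem main : PPIdxOfTriv.{u} := by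
  intro Ω _ S₀ _ p _ hS₀ T E F₀ hE hAut htriv
  have hinv : E.IsInvariantIn F₀ := hE.1.2.2
  have hTS₀ : T ≤ S₀ := hinv.2.1.1
  refine ⟨hinv.1, ?_, fun P hP => ?_⟩
  · unfold hyperfocalSubgroup
    rw [Subgroup.closure_le]
    rintro y ⟨P, α, x, hPS, -, rfl⟩
    have hα : P.subtype.comp (α : MulAut P).toMonoidHom ∈ F₀.Hom P :=
      (mem_autGroup_iff F₀ hPS (α : MulAut P)).1 α.2
    exact htriv P _ hα x
  · have hle : F₀.autGroup P ≤ E.autGroup P := by
      intro α hα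
      have hφ : P.subtype.comp α.toMonoidHom ∈ F₀.Hom P :=
        (mem_autGroup_iff F₀ (hP.trans hTS₀) α).1 hα
      obtain ⟨a, ha, φ₀, hφ₀, hfac⟩ := hinv.2.2.2 P hP _ hφ
      have haE : T.subtype.comp a.toMonoidHom ∈ E.Hom T :=
        (mem_autGroup_iff E le_rfl a).1 (hAut ha)
      have hφ₀T : ∀ x : P, φ₀ x ∈ T := fun x => (E.le_of_mem hφ₀).2 x
      have hmem : P.subtype.comp α.toMonoidHom ∈ E.Hom P :=
        comp_mem_of_eq E hφ₀ haE hφ₀T (fun x => hfac x (hφ₀T x))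
      exact (mem_autGroup_iff E hP α).2 hmem
    rintro _ ⟨β, -, rfl⟩
    exact hle β.2

end Cfsg.Agent.Lib.Helper84.ORPPIDX
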