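import Mathlib
import Cfsg.Agent.Lib.Helper88.ORStmt
import Cfsg.Agent.Lib.Helper87.FSBasic

/-! S5202 piece RESAUT (helper84): an `F`-automorphism of `S'` restricts to an `F`-automorphism
of a strongly closed subgroup `T ≤ S'`. -/

set_option autoImplicit false
open Cfsg

namespace Cfsg.Agent.Lib.Helper84.ORRESAUT

open Cfsg.FusionSystem Cfsg.Agent.Lib.Helper88.ORStmt Cfsg.Agent.Lib.Helper87.FSBasic

universe u

theorem main : ResAutT.{u} := by
  intro Ω _ S _ F T S' hTS' hT hS'S a ha
  have hA : S'.subtype.comp a.toMonoidHom ∈ F.Hom S' := (mem_autGroup_iff F hS'S a).1 ha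
  have hAT := restrict_mem F hA hTS'
  have hval : ∀ x : T, ((S'.subtype.comp a.toMonoidHom).comp (Subgroup.inclusion hTS')) x ∈ T :=
    fun x => hT.2 T le_rfl _ hAT x
  have hinj := F.injective_of_mem hAT
  haveI : Finite T := Finite.of_injective (Subgroup.inclusion (hTS'.trans hS'S))
    (Subgroup.inclusion_injective _)
  have hr : ((S'.subtype.comp a.toMonoidHom).comp (Subgroup.inclusion hTS')).range = T := by
    have hle : ((S'.subtype.comp a.toMonoidHom).comp (Subgroup.inclusion hTS')).range ≤ T := by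
      rintro _ ⟨x, rfl⟩
      exact hval x
    apply Subgroup.eq_of_le_of_card_ge hle
    exact (Nat.card_congr (Equiv.ofInjective _ hinj)).le
  refine ⟨autOfMap _ hinj hr, autOfMap_mem F hAT hr, ?_⟩
  intro t
  rfl

end Cfsg.Agent.Lib.Helper84.ORRESAUT
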