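import Mathlib
import Cfsg.Agent.Lib.Helper88.ORStmt
import Cfsg.Agent.Lib.Helper87.FSBasic

/-! S5202 piece SC (helper84): the preimage in `S'` of a subgroup `Γ ≤ Aut(T)` normalized by
`Aut_F(T)` and containing `Inn(T)` is strongly closed. -/

set_option autoImplicit false
open Cfsg

namespace Cfsg.Agent.Lib.Helper84.ORSC

open Cfsg.FusionSystem Cfsg.Agent.Lib.Helper88.ORStmt Cfsg.Agent.Lib.Helper87.FSBasic

universe u

/-- A map of `F` whose source contains the strongly closed `T` restricts to an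
`F`-automorphism of `T`. -/
theorem res_aut {Ω : Type u} [Group Ω] {S : Subgroup Ω} [Finite S] (F : FusionSystem S)
    {T Q : Subgroup Ω} (hT : F.StronglyClosed T) (hTQ : T ≤ Q) {ψ : Q →* Ω} (hψ : ψ ∈ F.Hom Q) :
    ∃ γ ∈ F.autGroup T, ∀ t : T, ((γ t : T) : Ω) = ψ (Subgroup.inclusion hTQ t) := by
  have hAT := restrict_mem F hψ hTQ
  have hval : ∀ x : T, (ψ.comp (Subgroup.inclusion hTQ)) x ∈ T :=
    fun x => hT.2 T le_rfl _ hAT x
  have hinj := F.injective_of_mem hAT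
  haveI : Finite T := Finite.of_injective (Subgroup.inclusion hT.1)
    (Subgroup.inclusion_injective _)
  have hr : (ψ.comp (Subgroup.inclusion hTQ)).range = T := by
    have hle : (ψ.comp (Subgroup.inclusion hTQ)).range ≤ T := by
      rintro _ ⟨x, rfl⟩
      exact hval x
    apply Subgroup.eq_of_le_of_card_ge hle
    exact (Nat.card_congr (Equiv.ofInjective _ hinj)).le
  exact ⟨autOfMap _ hinj hr, autOfMap_mem F hAT hr, fun t => rfl⟩

theorem main (hEXTT : ExtModT.{u}) : StrClosedPre.{u} := by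
  intro Ω _ S _ p _ hS F hF T S' S'' Γ hT hS' hTS' hΓ hInn hS''
  have hS''S' : S'' ≤ S' := fun x hx => ((hS'' x).mp hx).1
  refine ⟨hS''S'.trans hS'.1, fun R hR φ hφ x => ?_⟩
  rw [hS'']
  refine ⟨hS'.2 R (hR.trans hS''S') φ hφ x, ?_⟩
  obtain ⟨-, g, hg, hgx⟩ := (hS'' (x : Ω)).mp (hR x.2)
  obtain ⟨ψ, hψ, hψx⟩ := hEXTT p hS F hF T hT R φ hφ
  obtain ⟨γ, hγ, hγt⟩ := res_aut F hT (le_sup_right : T ≤ R ⊔ T) hψ
  have h1 := hψx x
  set y : Ω := ψ (Subgroup.inclusion le_sup_left x) with hy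
  set t₀ : Ω := (φ x)⁻¹ * y with ht₀
  obtain ⟨g₀, hg₀, hg₀t⟩ := hInn t₀⁻¹ (T.inv_mem h1)
  have hconj : ∀ s : T, (((γ * g * γ⁻¹) s : T) : Ω) = y * (s : Ω) * y⁻¹ := by
    intro s
    have e1 : (γ * g * γ⁻¹) s = γ (g (γ⁻¹ s)) := rfl
    rw [e1, hγt]
    have e2 : Subgroup.inclusion (le_sup_right : T ≤ R ⊔ T) (g (γ⁻¹ s)) =
        Subgroup.inclusion le_sup_left x * Subgroup.inclusion le_sup_right (γ⁻¹ s) *
          (Subgroup.inclusion le_sup_left x)⁻¹ := by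
      apply Subtype.ext
      exact hgx (γ⁻¹ s)
    rw [e2, map_mul, map_mul, map_inv, ← hγt]
    have e3 : γ (γ⁻¹ s) = s := by
      show (γ * γ⁻¹) s = s
      rw [mul_inv_cancel]; rfl
    rw [e3]
  refine ⟨(γ * g * γ⁻¹) * g₀, Γ.mul_mem (hΓ γ hγ g hg) hg₀, fun s => ?_⟩
  have e4 : ((γ * g * γ⁻¹) * g₀) s = (γ * g * γ⁻¹) (g₀ s) := rfl
  rw [e4, hconj, hg₀t]
  have e5 : φ x = y * t₀⁻¹ := by rw [ht₀]; group
  rw [e5]
  group

end Cfsg.Agent.Lib.Helper84.ORSC
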