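import Mathlib
import Cfsg.Agent.Lib.Helper12.SNStmt
import Cfsg.Agent.S4071
import Cfsg.Agent.S4072
import Cfsg.Agent.S4075

/-! S4073 piece CAGLUE (helper84): in an SN group with commutative Sylow subgroups, a
noncommutative centralizer `C_G(x)` gives a cyclic Sylow subgroup `⟨y⟩ ∋ x` self-normalizing in
`C_G(x)`. -/

set_option autoImplicit false

universe u

namespace Cfsg.Agent.Lib.Helper84.SNCAGLUE

open Cfsg.Agent.Lib.Helper12.SNDef Cfsg.Agent.Lib.Helper12.SNStmt

theorem mem_zp {G : Type u} [Group G] (C : Subgroup G) (w h : C) :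
    h ∈ Subgroup.zpowers w ↔ (h : G) ∈ Subgroup.zpowers (w : G) := by
  rw [Subgroup.mem_zpowers_iff, Subgroup.mem_zpowers_iff]
  constructor
  · rintro ⟨n, hn⟩
    refine ⟨n, ?_⟩
    rw [← hn]; simp
  · rintro ⟨n, hn⟩
    refine ⟨n, ?_⟩
    apply Subtype.ext
    rw [← hn]; simp

theorem main : CAGlue.{u} := by
  intro hCASimple hCANilp hCACent hCASyl
  intro G _ _ hS hsyl x hx hnc
  have hxC : x ∈ Subgroup.centralizer ({x} : Set G) :=
    Subgroup.mem_centralizer_iff.mpr (fun y hy => by rw [Set.mem_singleton_iff.mp hy])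
  have hcomm : ∀ g ∈ Subgroup.centralizer ({x} : Set G), x * g = g * x :=
    fun g hg => Subgroup.mem_centralizer_iff.mp hg x rfl
  have hx'c : (⟨x, hxC⟩ : Subgroup.centralizer ({x} : Set G)) ∈
      Subgroup.center (Subgroup.centralizer ({x} : Set G)) := by
    rw [Subgroup.mem_center_iff]
    intro g
    apply Subtype.ext
    exact (hcomm g.1 g.2).symm
  have hx'1 : (⟨x, hxC⟩ : Subgroup.centralizer ({x} : Set G)) ≠ 1 :=
    fun h => hx (congrArg Subtype.val h)
  have hSC : SN (Subgroup.centralizer ({x} : Set G)) := hS.subgroup _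
  rcases Cfsg.Agent.S4072.result hSC with hsol | hsimp
  · haveI := hsol
    by_cases hnil : Group.IsNilpotent (Subgroup.centralizer ({x} : Set G))
    · haveI := hnil
      rcases (Cfsg.Agent.S4075.result (G := Subgroup.centralizer ({x} : Set G))).mp hSC with
        hc | ⟨hpp, -, -⟩
      · exact absurd hc hnc
      · exact absurd (hCANilp hsyl _ hpp) hnc
    · obtain ⟨w, A, q, hsp⟩ :=
        (Cfsg.Agent.S4071.result (G := Subgroup.centralizer ({x} : Set G)) hnil).mp hSC
      have hsp' : Split (Subgroup.centralizer ({x} : Set G)) w A q := hsp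
      obtain ⟨hq, hAn, hAc, ⟨k, hk⟩, hqA, hcompl, hxq, hfpf⟩ := hsp
      obtain ⟨hcen, hnorm⟩ := hCACent w A q hsp'
      have hx'w : (⟨x, hxC⟩ : Subgroup.centralizer ({x} : Set G)) ∈ Subgroup.zpowers w :=
        hcen hx'c
      have hxy : x ∈ Subgroup.zpowers (w : G) := (mem_zp _ w ⟨x, hxC⟩).mp hx'w
      haveI : Fact q.Prime := ⟨hq⟩
      have hyq : IsPGroup q (Subgroup.zpowers (w : G)) := by
        apply IsPGroup.of_card (n := k)
        rw [Nat.card_zpowers, Subgroup.orderOf_coe, hk]
      obtain ⟨P, hP⟩ := hyq.exists_le_sylow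
      have hPc := hsyl q P
      have hxP : x ∈ (P : Subgroup G) := hP hxy
      have hPC : (P : Subgroup G) ≤ Subgroup.centralizer ({x} : Set G) := by
        intro g hg
        rw [Subgroup.mem_centralizer_iff]
        intro z hz
        rw [Set.mem_singleton_iff] at hz
        subst hz
        have h1 := hPc.is_comm.comm (⟨z, hxP⟩ : (P : Subgroup G)) ⟨g, hg⟩
        exact congrArg Subtype.val h1
      have hR : IsPGroup q ((P : Subgroup G).subgroupOf (Subgroup.centralizer ({x} : Set G))) :=
        P.isPGroup'.comap_subtype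
      have hwR : Subgroup.zpowers w ≤
          (P : Subgroup G).subgroupOf (Subgroup.centralizer ({x} : Set G)) := by
        rw [Subgroup.zpowers_le, Subgroup.mem_subgroupOf]
        exact hP (Subgroup.mem_zpowers _)
      have hRle := hCASyl w A q hsp' _ hR hwR
      have hPeq : (P : Subgroup G) = Subgroup.zpowers (w : G) := by
        apply le_antisymm
        · intro g hg
          have hgC : g ∈ Subgroup.centralizer ({x} : Set G) := hPC hg
          have h1 : (⟨g, hgC⟩ : Subgroup.centralizer ({x} : Set G)) ∈ Subgroup.zpowers w :=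
            hRle (Subgroup.mem_subgroupOf.mpr hg)
          exact (mem_zp _ w ⟨g, hgC⟩).mp h1
        · exact hP
      refine ⟨q, ⟨hq⟩, P, (w : G), hPeq, hxy, ?_⟩
      intro z hz hzn
      have h1 : (⟨z, hz⟩ : Subgroup.centralizer ({x} : Set G)) ∈
          Subgroup.normalizer ((Subgroup.zpowers w : Subgroup _) : Set _) := by
        rw [Subgroup.mem_normalizer_iff]
        intro h
        rw [mem_zp, mem_zp]
        exact (Subgroup.mem_normalizer_iff.mp hzn) (h : G)
      exact (mem_zp _ w ⟨z, hz⟩).mp (hnorm _ h1)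
  · haveI := hsimp
    exact absurd (hCASimple _ hx'c hx'1) hnc

end Cfsg.Agent.Lib.Helper84.SNCAGLUE
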